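import Cfsg.Agent.H280.L16.Norm

/-!
# S5916 (helper771): contractions of different families

`key` : `∑ b, B (∑ y, M y b • f y) (∑ u, M u (1 - b) • g u) = ∑ y, B (f y) (g (1 - y))` if `det M = 1` in characteristic 2.
`con2` : `Fam2 i j`, `Fam2 j l` give `Fam2 i l`. `con3a` : `Fam3 i j l`, `Fam3 j l m` give `Fam2 i m`.
`con3b` : `Fam3 i j l`, `Fam3 l m (i + 4)` give `Fam2 j m`.
-/

set_option autoImplicit false
set_option linter.unusedSectionVars false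

namespace Cfsg.Agent.H771.L16

open Matrix
open Cfsg.Agent.H280.L16 (PDat Fam1 Fam2 Fam3)

variable {k : Type*} [Field k] [CharP k 2] {V : Type*} [AddCommGroup V] [Module k V] (B : V →ₗ[k] V →ₗ[k] V)

/-- **the contraction** -/
theorem key {M : Fin 2 → Fin 2 → k} (hM : M 0 0 * M 1 1 - M 0 1 * M 1 0 = 1) (f g : Fin 2 → V) :
    ∑ b, B (∑ y, M y b • f y) (∑ u, M u (1 - b) • g u) = ∑ y, B (f y) (g (1 - y)) := by
  have h2 : (2 : k) = 0 := by exact_mod_cast CharP.cast_eq_zero k 2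
  simp only [Fin.sum_univ_two, sub_zero, sub_self, map_add, map_smul, LinearMap.add_apply, LinearMap.smul_apply]
  match_scalars
  · linear_combination M 0 0 * M 0 1 * h2
  · linear_combination hM + M 0 1 * M 1 0 * h2
  · linear_combination hM + M 0 1 * M 1 0 * h2
  · linear_combination M 1 0 * M 1 1 * h2

variable {F : Type*} [Field F] [Fintype F] {ι : F →+* k}
  {P : SpecialLinearGroup (Fin 2) F →* Matrix (Fin 2) (Fin 2) k} {y t0 : SpecialLinearGroup (Fin 2) F} {ζ : k}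
  {ρ : Representation k (SpecialLinearGroup (Fin 2) F) V}

theorem det_pow (D : PDat ι P y t0 ζ) (s : SpecialLinearGroup (Fin 2) F) (i : ℕ) :
    (P s 0 0) ^ 2 ^ i * (P s 1 1) ^ 2 ^ i - (P s 0 1) ^ 2 ^ i * (P s 1 0) ^ 2 ^ i = 1 := by
  rw [← mul_pow, ← mul_pow, ← sub_pow_char_pow, D.det, one_pow]

/-- the invariance of a bilinear map -/
def InvB (ρ : Representation k (SpecialLinearGroup (Fin 2) F) V) (B : V →ₗ[k] V →ₗ[k] V) : Prop :=
  ∀ s u v, ρ s (B u v) = B (ρ s u) (ρ s v)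

variable {B} (D : PDat ι P y t0 ζ) (hB : InvB ρ B)
include D hB

/-- contraction of one index with one index -/
theorem con1 {i : ℕ} {s t : Fin 2 → V} (hs : Fam1 P ρ i s) (ht : Fam1 P ρ i t) (x : SpecialLinearGroup (Fin 2) F) :
    ρ x (∑ b, B (s b) (t (1 - b))) = ∑ b, B (s b) (t (1 - b)) := by
  rw [map_sum, ← key B (M := fun a b => (P x a b) ^ 2 ^ i) (det_pow D x i) s t]
  refine Finset.sum_congr rfl fun b _ => ?_
  rw [hB, hs, ht]

/-- **CON2** -/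
theorem con2 {i j l : ℕ} {s t : Fin 2 → Fin 2 → V} (hs : Fam2 P ρ i j s) (ht : Fam2 P ρ j l t) :
    Fam2 P ρ i l fun a d => ∑ b, B (s a b) (t (1 - b) d) := by
  intro x a d
  have e1 : ∀ b, ρ x (s a b) = ∑ y, (P x y b) ^ 2 ^ j • (∑ a', (P x a' a) ^ 2 ^ i • s a' y) := by
    intro b
    rw [hs]
    simp only [Fin.sum_univ_two]
    module
  have e2 : ∀ b, ρ x (t b d) = ∑ y, (P x y b) ^ 2 ^ j • (∑ d', (P x d' d) ^ 2 ^ l • t y d') := by
    intro b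
    rw [ht]
    simp only [Fin.sum_univ_two]
    module
  rw [map_sum]
  have e3 : ∑ b, ρ x (B (s a b) (t (1 - b) d)) =
      ∑ b, B (∑ y, (P x y b) ^ 2 ^ j • (∑ a', (P x a' a) ^ 2 ^ i • s a' y))
        (∑ y, (P x y (1 - b)) ^ 2 ^ j • (∑ d', (P x d' d) ^ 2 ^ l • t y d')) :=
    Finset.sum_congr rfl fun b _ => by rw [hB, e1, e2]
  rw [e3, key B (M := fun a b => (P x a b) ^ 2 ^ j) (det_pow D x j) (fun y => ∑ a', (P x a' a) ^ 2 ^ i • s a' y) (fun y => ∑ d', (P x d' d) ^ 2 ^ l • t y d')]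
  simp only [Fin.sum_univ_two, sub_zero, sub_self, map_add, map_smul, LinearMap.add_apply, LinearMap.smul_apply]
  module

/-- **CON3a** -/
theorem con3a {i j l m : ℕ} {s t : Fin 2 → Fin 2 → Fin 2 → V} (hs : Fam3 P ρ i j l s) (ht : Fam3 P ρ j l m t) :
    Fam2 P ρ i m fun a d => ∑ b, ∑ c, B (s a b c) (t (1 - b) (1 - c) d) := by
  intro x a d
  have e1 : ∀ b c, ρ x (s a b c) = ∑ z, (P x z c) ^ 2 ^ l • (∑ y, (P x y b) ^ 2 ^ j • (∑ a', (P x a' a) ^ 2 ^ i • s a' y z)) := by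
    intro b c
    rw [hs]
    simp only [Fin.sum_univ_two]
    module
  have e2 : ∀ b c, ρ x (t b c d) = ∑ z, (P x z c) ^ 2 ^ l • (∑ y, (P x y b) ^ 2 ^ j • (∑ d', (P x d' d) ^ 2 ^ m • t y z d')) := by
    intro b c
    rw [ht]
    simp only [Fin.sum_univ_two]
    module
  have e3 : ρ x (∑ b, ∑ c, B (s a b c) (t (1 - b) (1 - c) d)) =
      ∑ b, ∑ c, B (∑ z, (P x z c) ^ 2 ^ l • (∑ y, (P x y b) ^ 2 ^ j • (∑ a', (P x a' a) ^ 2 ^ i • s a' y z)))
        (∑ z, (P x z (1 - c)) ^ 2 ^ l • (∑ y, (P x y (1 - b)) ^ 2 ^ j • (∑ d', (P x d' d) ^ 2 ^ m • t y z d'))) := by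
    rw [map_sum]
    refine Finset.sum_congr rfl fun b _ => ?_
    rw [map_sum]
    exact Finset.sum_congr rfl fun c _ => by rw [hB, e1, e2]
  have e4 : ∀ b, ∑ c, B (∑ z, (P x z c) ^ 2 ^ l • (∑ y, (P x y b) ^ 2 ^ j • (∑ a', (P x a' a) ^ 2 ^ i • s a' y z)))
        (∑ z, (P x z (1 - c)) ^ 2 ^ l • (∑ y, (P x y (1 - b)) ^ 2 ^ j • (∑ d', (P x d' d) ^ 2 ^ m • t y z d'))) =
      ∑ z, B (∑ y, (P x y b) ^ 2 ^ j • (∑ a', (P x a' a) ^ 2 ^ i • s a' y z))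
        (∑ y, (P x y (1 - b)) ^ 2 ^ j • (∑ d', (P x d' d) ^ 2 ^ m • t y (1 - z) d')) := fun b =>
    key B (M := fun a b => (P x a b) ^ 2 ^ l) (det_pow D x l) (fun z => ∑ y, (P x y b) ^ 2 ^ j • (∑ a', (P x a' a) ^ 2 ^ i • s a' y z))
      (fun z => ∑ y, (P x y (1 - b)) ^ 2 ^ j • (∑ d', (P x d' d) ^ 2 ^ m • t y z d'))
  have e5 : ∀ z, ∑ b, B (∑ y, (P x y b) ^ 2 ^ j • (∑ a', (P x a' a) ^ 2 ^ i • s a' y z))
        (∑ y, (P x y (1 - b)) ^ 2 ^ j • (∑ d', (P x d' d) ^ 2 ^ m • t y (1 - z) d')) =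
      ∑ y, B (∑ a', (P x a' a) ^ 2 ^ i • s a' y z) (∑ d', (P x d' d) ^ 2 ^ m • t (1 - y) (1 - z) d') := fun z =>
    key B (M := fun a b => (P x a b) ^ 2 ^ j) (det_pow D x j) (fun y => ∑ a', (P x a' a) ^ 2 ^ i • s a' y z)
      (fun y => ∑ d', (P x d' d) ^ 2 ^ m • t y (1 - z) d')
  rw [e3, Finset.sum_congr rfl fun b _ => e4 b, Finset.sum_comm, Finset.sum_congr rfl fun z _ => e5 z]
  simp only [Fin.sum_univ_two, sub_zero, sub_self, map_add, map_smul, LinearMap.add_apply, LinearMap.smul_apply]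
  module

/-- **CON3b** -/
theorem con3b {i j l m : ℕ} {s t : Fin 2 → Fin 2 → Fin 2 → V} (hs : Fam3 P ρ i j l s) (ht : Fam3 P ρ l m (i + 4) t) :
    Fam2 P ρ j m fun b d => ∑ a, ∑ c, B (s a b c) (t (1 - c) d a) := by
  have h1 : Fam3 P ρ j l i fun b c a => s a b c := hs.rot.rot
  have h2 : Fam3 P ρ l i m fun c a d => t c d (1 - a) := (D.dn3.1 ht.rot).swap
  have h3 := con3a D hB h1 h2
  intro x b d
  have h4 := h3 x b d
  simp only [sub_sub_cancel] at h4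
  have e : ∀ b d, ∑ c, ∑ a, B (s a b c) (t (1 - c) d a) = ∑ a, ∑ c, B (s a b c) (t (1 - c) d a) := fun b d =>
    Finset.sum_comm
  simpa only [e] using h4

end Cfsg.Agent.H771.L16
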