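import Cfsg.Agent.H771.L16.Ctr
import Cfsg.Agent.H939.L16.Def2

/-!
# S5916 (helper771): the representation `rz z f`, the bracket and the Frobenius map

`frM` : `FrM (rz z f) Fp`; `inv_brM` : the bracket is invariant; `br_self` : `[v, v] = 0`.
-/

set_option autoImplicit false
set_option maxRecDepth 100000

namespace Cfsg.Agent.H771.L16

open Matrix Cfsg Cfsg.Lie
open Cfsg.Agent.H939.L64 (KK E2 LK em aK rE fr brK)
open Cfsg.Agent.H939.L16
open Cfsg.Agent.H413.L16 (brM jac ad_inj)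
open Cfsg.Agent.H280.L16 (FrM)

/-- the bracket is alternating -/
theorem br_self (v : LK) : brK v v = 0 := by
  apply ad_inj
  intro z
  have h := jac v v z
  exact (right_eq_add.1 h)

theorem brM_apply (v w : LK) : brM v w = brK v w := rfl

theorem aK_mul (g h : ↥(chevE8.group KK)) (v : LK) : aK (g * h) v = aK g (aK h v) := by
  unfold aK
  rw [Subgroup.coe_mul, Units.val_mul, Matrix.mulVec_mulVec]

theorem aK_one (v : LK) : aK 1 v = v := by
  unfold aK
  rw [Subgroup.coe_one, Units.val_one, Matrix.one_mulVec]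

theorem aK_brK (g : ↥(chevE8.group KK)) (v w : LK) : aK g (brK v w) = brK (aK g v) (aK g w) :=
  Cfsg.Agent.H971.RV.rho_br (by simp) g v w

theorem fr_aK (g : E2) (v : LK) : fr (aK (em g) v) = aK (em g) (fr v) :=
  Cfsg.Agent.H939.L64.frE_rE g v

section

variable {F : Type} [Field F] (z : ↥(chevE8.group KK)) (f : SpecialLinearGroup (Fin 2) F →* E2)

/-- **the bracket is invariant** -/
theorem inv_brM : InvB (rz z f) brM := fun s v w => aK_brK (z⁻¹ * em (f s) * z) v w

variable {z f}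

/-- the Frobenius map from the frame -/
theorem Fp_eq {Fp : LK → LK} (h : ∀ v, aK z⁻¹ (fr v) = Fp (aK z⁻¹ v)) (v : LK) : Fp v = aK z⁻¹ (fr (aK z v)) := by
  rw [h, ← aK_mul, inv_mul_cancel, aK_one]

theorem frM_of {Fp : LK → LK} {ta : LK →ₗ[KK] LK} (hO : Ops Fp ta) (h : ∀ v, aK z⁻¹ (fr v) = Fp (aK z⁻¹ v)) :
    FrM (rz z f) Fp where
  add := hO.add
  smul := hO.smul
  inj := hO.inj
  comm s v := by
    rw [Fp_eq h, Fp_eq h v, rz_apply, rz_apply, ← aK_mul, ← aK_mul]
    have e1 : z * (z⁻¹ * em (f s) * z) = em (f s) * z := by group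
    have e2 : z⁻¹ * em (f s) * z * z⁻¹ = z⁻¹ * em (f s) := by group
    rw [e1, e2, aK_mul, aK_mul, fr_aK]

/-- **the Frobenius map** -/
theorem frM [Fintype F] {H : Subgroup E2} {y t0 : SpecialLinearGroup (Fin 2) F} {ζ' : KK} {Fp : LK → LK}
    {ta : LK →ₗ[KK] LK} (L : Lsit H f y t0 z ζ' Fp ta) : FrM (rz z f) Fp := frM_of L.ops L.frob

end

end Cfsg.Agent.H771.L16
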